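import Cfsg.Agent.Depth.ADefs

/-!
# Depth (S5768): the bilinear sum and its bounds on the arcs (interface)

`θ = a'/q' + β`, `b = 60 j + 2`, `δ = |β| N / 60`, `q'' = q'/gcd(q',60)`, `q̌ = q'/gcd(q',2)`.
-/

set_option autoImplicit false

namespace Cfsg.Agent.Depth

open Finset
open scoped Classical

/-- the primes `60 j + 1` of the window `s` -/
noncomputable def JW (N s : ℕ) : Finset ℕ := (range N).filter (fun j => InW N s j ∧ (60 * j + 1).Prime)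

/-- weight of `p₂ = 60 j + 1` -/
noncomputable def lw (j : ℕ) : ℝ := Real.log (60 * j + 1)

/-- total weight -/
noncomputable def Th (N : ℕ) : ℝ := ∑ s ∈ range 8, ∑ j ∈ JW N s, lw j

/-- transform of the bilinear weight on `y = i b + c₁ j` -/
noncomputable def phiH (N c1 : ℕ) (lam : ℕ → ℕ → ℝ) (θ : ℝ) : ℂ :=
  ∑ s ∈ range 8, ∑ j ∈ JW N s, (lw j : ℂ) *
    ∑ i ∈ range (Ew s), ((lam s i / Tw s : ℝ) : ℂ) * ex (θ * ((i * (60 * j + 2) + c1 * j : ℕ) : ℝ))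

/-- normalised transform of the trapezoid -/
noncomputable def tau (s : ℕ) (u : ℝ) : ℂ := ∑ i ∈ range (Ew s), ((tw s i / Tw s : ℝ) : ℂ) * ex (u * i)

/-- transform of the smooth comparison weight -/
noncomputable def nuH (N c1 : ℕ) (θ : ℝ) : ℂ :=
  ∑ s ∈ range 8, ∑ j ∈ JW N s, (lw j : ℂ) * (ex (θ * (c1 * j)) * tau s (θ * (60 * j + 2)) *
    ((∑ v ∈ range (60 * j + 2), ex (θ * v)) / (60 * j + 2)))

/-- the moduli of the model including `1` -/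
def QF : Finset (List ℕ) := ([] :: QP).toFinset

/-- Fourier coefficients of the model -/
noncomputable def rh (c1 : ℕ) (ps : List ℕ) (a : ℕ) : ℂ :=
  (∑ i ∈ range ps.prod, (((ps.map fun p => omQ p ((60 * i + c1) % p) - 1).prod : ℚ) : ℂ) *
    ex (-((i : ℝ) * a / ps.prod))) / ps.prod

/-- bound for `rh` -/
noncomputable def cL (ps : List ℕ) : ℝ := ((ps.map cQ).prod : ℚ)

/-- `q''` -/
def q2 (q' : ℕ) : ℕ := q' / q'.gcd 60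

/-- `q̌` -/
def qc (q' : ℕ) : ℕ := q' / q'.gcd 2

/-- `q̌ / q''` -/
def ge (q' : ℕ) : ℕ := qc q' / q2 q'

/-- `δ` -/
noncomputable def dl (N : ℕ) (β : ℝ) : ℝ := |β| * N / 60

/-- `a/q + a' b/q'` is an integer -/
def Mat (a' : ℤ) (q' q a j : ℕ) : Prop := ((q * q' : ℕ) : ℤ) ∣ a * q' + a' * (60 * j + 2) * q

/-- the drift `β b` is small against the gap between the fractions -/
def Val (N q' q : ℕ) (β : ℝ) : Prop := |β| * (2 * BB N + 1) * q * qc q' ≤ 0.75 * q.gcd q'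

/-- the matching terms of the model -/
noncomputable def matH (N c1 : ℕ) (a' : ℤ) (q' : ℕ) (β : ℝ) : ℂ :=
  ∑ s ∈ range 8, ∑ j ∈ JW N s, (lw j : ℂ) * (ex ((a' / q' + β) * (c1 * j)) * tau s (β * (60 * j + 2)) *
    ∑ ps ∈ QF, ∑ a ∈ (range ps.prod).filter (fun a => Val N q' ps.prod β ∧ Mat a' q' ps.prod a j), rh c1 ps a)

/-- the other terms of the model -/
noncomputable def forS (N : ℕ) (a' : ℤ) (q' : ℕ) (β : ℝ) : ℝ :=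
  ∑ s ∈ range 8, ∑ j ∈ JW N s, lw j * ∑ ps ∈ QF, cL ps *
    ∑ a ∈ (range ps.prod).filter (fun a => ¬ (Val N q' ps.prod β ∧ Mat a' q' ps.prod a j)),
      ‖tau s ((a' / q' + β) * (60 * j + 2) + a / ps.prod)‖

/-- the noise -/
noncomputable def noiS (N c1 : ℕ) (lam : ℕ → ℕ → ℝ) (θ : ℝ) : ℝ :=
  ∑ s ∈ range 8, ∑ j ∈ JW N s, lw j *
    (‖∑ i ∈ range (Ew s), ((lam s i - tw s i * (rhoQ (60 * i + c1) : ℝ) : ℝ) : ℂ) *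
      ex (θ * (60 * j + 2) * i)‖ / Tw s)

/-- the data of all windows -/
def LAll (c1 : ℕ) (lam : ℕ → ℕ → ℝ) : Prop :=
  ∀ s, s < 8 → LFacts c1 s 0.001 (n8T s / 10 ^ 22) (n2T s / 10 ^ 9) (lam s)

/-- the sieve constant -/
noncomputable def cc (N : ℕ) (lo T R : ℝ) : ℝ :=
  (1 + 1.2 / T + 0.000001) * (4 / 15) * Real.log (2 * BB N) / (lo * Gs 60 R)

/-- bound for `|τ|` at `δ ≥ d` -/
def omg (d : ℚ) : ℚ :=
  min (if 0.6606 * d ≤ 3.1 then max (1 - (0.6606 * d) ^ 2 / 6 + (0.6606 * d) ^ 4 / 120) 0.3184 else 0.3184)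
    (if d ≤ 1 then 1 else 1 / (0.63 * d)) + 0.000001

/-- variation of `τ` over the windows for `d0 ≤ δ ≤ d1` -/
noncomputable def zet (d0 d1 : ℚ) : ℝ :=
  0.045 * Real.sqrt ((0.9685 * (d1 : ℝ) * omg d0) ^ 2 +
    (1.0472 * (min ((0.7229 * (d1 : ℝ)) ^ 2 / 3) 1.14 + min ((0.1808 * (d1 : ℝ)) ^ 2 / 3) 1.14)) ^ 2) + 0.00001

/-- multiplicative majorant of the model coefficients -/
noncomputable def cM (n : ℕ) : ℝ := if Squarefree n then ∏ p ∈ n.primeFactors, (cQ p : ℝ) else 0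

/-- multiplicative majorant of the match density -/
noncomputable def xM (u : ℕ → ℝ) (k : ℕ) : ℝ :=
  ∏ p ∈ k.primeFactors,
    ((cQ p : ℝ) * (u p ^ (k.factorization p - 1) / (p ^ (k.factorization p - 1)).totient) +
      (1 - (cQ p : ℝ)) * (u p ^ k.factorization p / (p ^ k.factorization p).totient))

/-- weight of the `b` divisible by `e` -/
noncomputable def mass (N e : ℕ) : ℝ := ∑ s ∈ range 8, ∑ j ∈ (JW N s).filter (fun j => e ∣ 60 * j + 2), lw j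

/-! ### boxes -/

/-- Fourier expansion of the model -/
def BoxRho : Prop :=
  ∀ c1 : ℕ, (∀ i : ℕ, (((rhoQ (60 * i + c1) : ℚ) : ℝ) : ℂ) =
      ∑ ps ∈ QF, ∑ a ∈ range ps.prod, rh c1 ps a * ex ((i : ℝ) * a / ps.prod)) ∧
    ∀ ps ∈ QF, ∀ a, a < ps.prod → ‖rh c1 ps a‖ ≤ cL ps ∧ (¬ a.Coprime ps.prod → rh c1 ps a = 0)

/-- splitting -/
def BoxSplit : Prop :=
  ∀ (N c1 : ℕ) (lam : ℕ → ℕ → ℝ) (a' : ℤ) (q' : ℕ) (β : ℝ), 0 < q' →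
    ‖phiH N c1 lam (a' / q' + β) - matH N c1 a' q' β‖ ≤ forS N a' q' β + noiS N c1 lam (a' / q' + β)

/-- pointwise bounds for `τ` -/
def BoxTau : Prop :=
  ∀ (N c1 s j : ℕ) (β : ℝ) (d0 : ℚ), 10 ^ 23 ≤ N → c1 < 60 → s < 8 → InW N s j → 0 ≤ d0 → (d0 : ℝ) ≤ dl N β →
    |β| * (2 * BB N + 1) ≤ 0.75 → ‖tau s (β * (60 * j + 2))‖ ≤ omg d0

/-- `τ` is nearly constant over the windows -/
def BoxZet : Prop :=
  ∀ (N c1 : ℕ) (β : ℝ) (d0 d1 : ℚ), 10 ^ 23 ≤ N → c1 < 60 → 0 ≤ d0 → (d0 : ℝ) ≤ dl N β → dl N β ≤ d1 → d1 ≤ 8 →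
    ∃ z : ℂ, ‖z‖ ≤ omg d0 ∧ ∀ s j, s < 8 → InW N s j →
      ‖ex (β * (c1 * j)) * tau s (β * (60 * j + 2)) - z‖ ≤ zet d0 d1

/-- the comparison weight -/
def BoxNu : Prop :=
  ∀ (N c1 : ℕ), 10 ^ 23 ≤ N → c1 < 60 →
    (∀ θ : ℝ, ‖nuH N c1 θ‖ * (11304960 * BB N * |Real.sin (Real.pi * θ)|) ≤ Th N) ∧
    (∀ (β : ℝ) (d0 : ℚ), |β| ≤ 0.1 → 0 ≤ d0 → (d0 : ℝ) ≤ dl N β → ‖nuH N c1 β‖ ≤ Th N * omg d0) ∧
    (∀ β : ℝ, |β| ≤ 0.1 → ‖matH N c1 0 1 β - nuH N c1 β‖ ≤ Th N * 0.000001)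

/-- noise -/
def BoxNoi : Prop :=
  ∀ (N c1 : ℕ) (lam : ℕ → ℕ → ℝ) (a' : ℤ) (q' : ℕ) (β lo T R h : ℝ), 10 ^ 23 ≤ N → LAll c1 lam → 0 < q' →
    IsCoprime a' (q' : ℤ) → 0 < lo → lo * BB N / 16 ≤ Th N → 0 < T → 1 ≤ R →
    q2 q' * (T + 0.0325 * dl N β) * R ^ 2 ≤ 0.0015 * BB N → 0 < h → h ≤ q2 q' * max 1 (dl N β / (33 * T)) →
    noiS N c1 lam (a' / q' + β) ≤ Th N * (0.001 + min 0.03491
      ((cc N lo T R * ff (q2 q') * (1.604e-12 / h + 6.97e-20)) ^ (1 / 8 : ℝ)))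

/-- direct bound -/
def BoxDir : Prop :=
  ∀ (N c1 : ℕ) (lam : ℕ → ℕ → ℝ) (a' : ℤ) (q' k qt : ℕ) (β lo T R h F : ℝ), 10 ^ 23 ≤ N → LAll c1 lam → 0 < q' →
    IsCoprime a' (q' : ℤ) → 0 < lo → lo * BB N / 16 ≤ Th N → 0 < T → 1 ≤ R →
    q2 q' * (T + 0.0325 * dl N β) * R ^ 2 ≤ 0.0015 * BB N → 60 ∣ k → 0 < qt → 0 < F → Gs 60 R / F ≤ Gs k R →
    (∀ m' r : ℕ, Squarefree r → r.Coprime k → q2 q' ∣ m' * r → qt ∣ m') →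
    0 < h → h ≤ qt * max 1 (dl N β / (33 * T)) →
    ‖phiH N c1 lam (a' / q' + β)‖ ≤ Th N * Real.sqrt (cc N lo T R * F * (51.8 / h + 2.14e-6)) ∧
    (34611200 ≤ h → ‖phiH N c1 lam (a' / q' + β)‖ ≤ Th N * Real.sqrt (cc N lo T R * F * 2.14e-6))

/-- sieve modulus with few primes for large heights -/
def BoxTrick : Prop :=
  ∀ (q : ℕ) (x : ℝ), 0 < q → 1 ≤ x → 34611200 * 7436429 ≤ q * x → ∃ k qt : ℕ, 60 ∣ k ∧ 0 < qt ∧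
    34611200 ≤ qt * x ∧ (∀ m' r : ℕ, Squarefree r → r.Coprime k → q ∣ m' * r → qt ∣ m') ∧
    ∀ R : ℝ, Gs 60 R / 1.155 ≤ Gs k R

/-- foreign terms -/
def BoxFor : Prop :=
  ∀ (N : ℕ) (a' : ℤ) (q' : ℕ) (β lo R : ℝ), 10 ^ 23 ≤ N → 0 < q' → IsCoprime a' (q' : ℤ) → 0 < lo →
    lo * BB N / 16 ≤ Th N → 1 ≤ R → q2 q' * (12 + 0.144 * dl N β) * R ^ 2 ≤ BB N / 60 →
    forS N a' q' β ≤ Th N * (1e-8 + 6.5e-7 * (ge q' : ℝ) ^ 2 + cc N lo 10 R * ff (q2 q') *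
      (0.54 * (ge q' / 0.66 + 2.64 / ge q') * 202.6 / 2826240 +
        ∑ ps ∈ QF.filter (fun ps => ¬ Val N q' ps.prod β), cL ps * (23.8 * ps.prod.gcd q' / (dl N β * q2 q'))))

/-- matching terms, general denominators -/
def BoxM1 : Prop :=
  ∀ (N c1 : ℕ) (a' : ℤ) (q' : ℕ) (β : ℝ), 10 ^ 23 ≤ N → c1 < 60 → 0 < q' → IsCoprime a' (q' : ℤ) →
    (¬ (qc q').Coprime 30 → matH N c1 a' q' β = 0) ∧
    ∀ (d0 : ℚ) (C : ℝ) (u : ℕ → ℝ), (qc q').Coprime 30 → 0 ≤ d0 → (d0 : ℝ) ≤ dl N β → 1 ≤ C → (∀ p, 1 ≤ u p) →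
      (∀ e, 1 < e → e ∣ qc q' → mass N e ≤ Th N * (C * (∏ p ∈ e.primeFactors, u p ^ e.factorization p) / e.totient)) →
      ‖matH N c1 a' q' β‖ ≤ Th N * (omg d0 * (cM (qc q') + C * (xM u (qc q') - cM (qc q'))))

/-- Brun-Titchmarsh for `e ∣ b` -/
def BoxM3 : Prop :=
  ∀ (N e : ℕ) (lo T R : ℝ), 10 ^ 23 ≤ N → 0 < e → e.Coprime 30 → 0 < lo → lo * BB N / 16 ≤ Th N → 0 < T → 1 ≤ R →
    e * T * (R ^ 2 + 4) ≤ BB N / 60 → R ≤ BB N → mass N e ≤ Th N * (cc N lo T R / e.totient)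

/-- the total weight -/
def BoxTh : Prop := ∀ (N : ℕ) (x0 lo up : ℝ), 10 ^ 23 ≤ N → PI 60 x0 lo up → x0 ≤ BB N → lo * BB N / 16 ≤ Th N

/-- the denominator `2` -/
def BoxM4 : Prop :=
  ∀ (N c1 : ℕ) (a' : ℤ) (β x0 lo up : ℝ) (d0 d1 : ℚ), 10 ^ 23 ≤ N → c1 < 60 → c1 % 2 = 1 → IsCoprime a' (2 : ℤ) →
    PI 120 x0 lo up → x0 ≤ BB N → 0 < lo → lo ≤ up → 0 ≤ d0 → (d0 : ℝ) ≤ dl N β → dl N β ≤ d1 → d1 ≤ 8 →
    ‖matH N c1 a' 2 β‖ ≤ Th N * ((up - lo) / (up + lo) * omg d0 + zet d0 d1)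

/-- the denominators `p`, `2 p` -/
def BoxM5 : Prop :=
  ∀ (N c1 p q' : ℕ) (a' : ℤ) (β x0 lo up l0 : ℝ) (d0 : ℚ), 10 ^ 23 ≤ N → c1 < 60 → c1 % 2 = 1 →
    p ∈ [7, 11, 13, 17, 19, 23] → (q' = p ∨ q' = 2 * p) → IsCoprime a' (q' : ℤ) →
    PI (120 * p) x0 lo up → x0 ≤ BB N → lo ≤ up → 0 < l0 → l0 * BB N / 16 ≤ Th N → 0 ≤ d0 → (d0 : ℝ) ≤ dl N β →
    ‖matH N c1 a' q' β‖ ≤ Th N * (omg d0 * (cQ p + (1 - cQ p) * (up / ((p - 1) * l0)))) ∧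
    ∀ d1 : ℚ, dl N β ≤ d1 → d1 ≤ 8 → 0 ≤ lo →
      ‖matH N c1 a' q' β‖ ≤ Th N *
        (omg d0 * (((up + lo) / 2 * cQ p + (up - lo) / 2 * (1 + (p - 2) * cQ p)) / ((p - 1) * l0)) +
          zet d0 d1 * (cQ p + (1 - cQ p) * (up / ((p - 1) * l0))))

/-- restriction estimate for very large `N` -/
def BoxR : Prop :=
  ∀ (N N' c1 c3 c4 M1 : ℕ) (lam : ℕ → ℕ → ℝ) (w : ℕ → ℝ) (U η : ℝ), 190 ≤ Real.log N →
    N = 60 * N' + 2 * c1 + c3 + c4 + 2 → c1 < 60 → c3 < 60 → c4 < 60 → LAll c1 lam → MFacts N N' c1 c3 c4 w U →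
    0.94 * BB N / 16 ≤ Th N → 0 < M1 → 0.0033 ≤ η → η ≤ 1 →
    ∑ k ∈ range ((N' + 1) * M1),
      min η (‖phiH N c1 lam (k / ((N' + 1) * M1 : ℕ)) - nuH N c1 (k / ((N' + 1) * M1 : ℕ))‖ / Th N) *
        (‖SS ((N' + 1) * M1) (aw c3 w) (k / ((N' + 1) * M1 : ℕ))‖ *
          ‖SS ((N' + 1) * M1) (aw c4 w) (k / ((N' + 1) * M1 : ℕ))‖) ≤
      ((N' + 1) * M1 : ℕ) * η * (if Real.log N ≤ 10 ^ 6 then 56 else 61) * U

/-- arc parameter -/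
def RR (N : ℕ) : ℕ := Nat.sqrt (N / 192)

/-- excess of `|φ̂ - ν̂| / Θ` over `η` at the denominator `q` and the offset `β` -/
noncomputable def Dact (N c1 : ℕ) (lam : ℕ → ℕ → ℝ) (η : ℝ) (q : ℕ) (β : ℝ) : ℝ :=
  ((range q).filter (fun b => b.Coprime q)).fold max 0
    (fun b => ‖phiH N c1 lam (b / q + β) - nuH N c1 (b / q + β)‖ / Th N - η)

/-- the numerical heart: plateau, arc condition and final inequality -/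
def BoxNum : Prop :=
  ∀ (N c1 : ℕ) (lam : ℕ → ℕ → ℝ), 10 ^ 24 ≤ N → (c1 = 59 ∨ c1 = 47) → LAll c1 lam →
    0.94 * BB N / 16 ≤ Th N ∧ ∃ η κ γ : ℝ, 0.0033 ≤ η ∧ η ≤ 1 ∧ 0 ≤ κ ∧ 0 ≤ γ ∧ γ ≤ 1 ∧
      (∀ (q : ℕ) (β : ℝ), 1 ≤ q → q ≤ RR N → 1 ≤ 2 * q * RR N * |β| → q * RR N * |β| ≤ 1 →
        Dact N c1 lam η q β = 0) ∧
      (∀ (M q : ℕ) (t : ℤ), 0 < M → Arc M (RR N) q t →
        ∑ d ∈ Dset M (RR N) q t, Dact N c1 lam η (q * d) (t / M) / d.totient +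
          (if q = 1 then γ * (‖nuH N c1 (t / M)‖ / Th N) else 0) ≤
          κ * ∑ d ∈ Dset M (RR N) q t, (1 : ℝ) / d.totient) ∧
      (κ + 38 / Real.sqrt N) * (0.2736 * Real.log N - 0.24) +
        η * min (0.2736 * Real.log N - 0.24)
          (if Real.log N < 190 then 52 else if Real.log N ≤ 10 ^ 6 then 56 else 61) < 0.84 * (1 + γ)

end Cfsg.Agent.Depth
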