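import Mathlib

/-!
# Depth of alternating groups (S5768): group-theoretic interface

Every even `N ≥ 10^22` is `l (p₂+1) + (p₃+1) + (p₄+1)` (`Big`), every `20 ≤ n ≤ 10^22+1` is a sum of at most
four numbers `p+1` and a small rest (`Small`).  The group boxes turn this into chains of length `≤ 23`.
-/

set_option autoImplicit false

namespace Cfsg.Agent.Depth

/-- primes `p ≡ ±1 (mod 10)`, `p ≥ 19`: `A_{p+1} > L₂(p) > A₅`. -/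
def Good (p : ℕ) : Prop := p.Prime ∧ 19 ≤ p ∧ (p % 10 = 1 ∨ p % 10 = 9)

/-- safe primes: `S_l > AGL₁(l) > l:((l-1)/2) > l > 1`. -/
def Safe (l : ℕ) : Prop := l.Prime ∧ (l / 2).Prime ∧ 29 ≤ l

/-- the analytic theorem -/
def Big : Prop :=
  ∀ N : ℕ, 10 ^ 22 ≤ N → Even N → ∃ l p₂ p₃ p₄ : ℕ, Safe l ∧ Good p₂ ∧ Good p₃ ∧ Good p₄ ∧
    3 * (l * (p₂ + 1)) < N ∧ N = l * (p₂ + 1) + (p₃ + 1) + (p₄ + 1)

/-- the finite check -/
def Small : Prop :=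
  ∀ n : ℕ, 20 ≤ n → n ≤ 10 ^ 22 + 1 → ∃ (ps : List ℕ) (r : ℕ), ps ≠ [] ∧ ps.Nodup ∧ (∀ p ∈ ps, Good p) ∧
    5 * ps.length + r ≤ 23 ∧ n = (ps.map (· + 1)).sum + r

/-- `Red G H k`: an unrefinable chain of length `≤ k` from `G` down to a subgroup isomorphic to `H`. -/
def Red (G H : Type) [Group G] [Group H] (k : ℕ) : Prop :=
  ∃ (t : ℕ) (c : Fin (t + 1) → Subgroup G), t ≤ k ∧ c 0 = ⊤ ∧ Nonempty (c (Fin.last t) ≃* H) ∧
    ∀ i : Fin t, c i.succ ⋖ c i.castSucc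

/-- the alternating group of degree `n` -/
abbrev Alt (n : ℕ) : Type := ↥(alternatingGroup (Fin n))

/-- point stabiliser -/
def GPoint : Prop := ∀ n : ℕ, 5 ≤ n → Red (Alt (n + 1)) (Alt n) 1

/-- `A_{a+b} > (S_a × S_b) ∩ A > A_a × A_b` -/
def GSplit : Prop := ∀ a b : ℕ, 5 ≤ a → 5 ≤ b → a ≠ b → Red (Alt (a + b)) (Alt a × Alt b) 2

/-- `A_{p+1} > L₂(p) > A₅` -/
def GLeaf : Prop := ∀ p : ℕ, Good p → Red (Alt (p + 1)) (Alt 5) 2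

/-- diagonal of `A₅ × A₅`, and `A₅ > D₁₀ > C₅ > 1` -/
def GFive : Prop := Red (Alt 5 × Alt 5) (Alt 5) 1 ∧ Red (Alt 5) PUnit 3

/-- `A_{la} > (S_a ≀ S_l) ∩ A > A_a ≀ S_l > A_a × S_l` for `l` odd, `a` even -/
def GWr : Prop :=
  ∀ l a : ℕ, Odd l → 3 ≤ l → Even a → 6 ≤ a → Red (Alt (l * a)) (Alt a × Equiv.Perm (Fin l)) 3

/-- `S_l > AGL₁(l) > l:((l-1)/2) > l > 1` -/
def GAff : Prop := ∀ l : ℕ, Safe l → Red (Equiv.Perm (Fin l)) PUnit 4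

/-- the statement S5768 -/
def Goal : Prop :=
  ∀ n : ℕ, ∃ (t : ℕ) (c : Fin (t + 1) → Subgroup ↥(alternatingGroup (Fin n))), t ≤ 23 ∧ c 0 = ⊤ ∧
    c (Fin.last t) = ⊥ ∧ ∀ i : Fin t, c i.succ ⋖ c i.castSucc

/-- the assembly box -/
def GAsm : Prop := Big → Small → GPoint → GSplit → GLeaf → GFive → GWr → GAff → Goal

end Cfsg.Agent.Depth
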