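import Mathlib

/-!
# Depth (S5768): sieve interface

Boxes: `LS` (dual large sieve), `LemS` (sampling lemma with sieve gain), `BT` (Brun-Titchmarsh form),
`LemE` (enveloping sieve, few points), `LP` (arc inequality), `GH1`..`GH5` (bounds for the sieve sums).
-/

set_option autoImplicit false

namespace Cfsg.Agent.Depth

open Finset

/-- `e(x)` -/
noncomputable def ex (x : ℝ) : ℂ := Complex.exp (2 * Real.pi * Complex.I * x)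

/-- distance to the nearest integer -/
noncomputable def nd (x : ℝ) : ℝ := |x - round x|

/-- `G_k(R) = ∑ μ²(d)/φ(d)` over `d ≤ R` coprime to `k` -/
noncomputable def Gs (k : ℕ) (R : ℝ) : ℝ :=
  ∑ d ∈ (Icc 1 ⌊R⌋₊).filter (fun d => Squarefree d ∧ d.Coprime k), (1 : ℝ) / d.totient

/-- `W j + c` has no prime factor `p ≤ R` outside `k` -/
def Sifted (W c k : ℕ) (R : ℝ) (j : ℕ) : Prop :=
  ∀ p : ℕ, p.Prime → (p : ℝ) ≤ R → ¬ p ∣ k → ¬ p ∣ W * j + c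

/-- `f(q) = ∏ p/(p-1)` over the primes `p > 5` dividing `q` -/
noncomputable def ff (q : ℕ) : ℝ := ∏ p ∈ q.primeFactors.filter (fun p => 5 < p), (p : ℝ) / (p - 1)

/-- dual large sieve -/
def LS : Prop :=
  ∀ (ι : Type) (s : Finset ι) (x : ι → ℝ) (γ : ι → ℂ) (δ : ℝ) (j0 : ℤ) (Y : ℕ), 0 < δ →
    (∀ r ∈ s, ∀ r' ∈ s, r ≠ r' → δ ≤ nd (x r - x r')) →
    ∑ j ∈ Ico j0 (j0 + Y), ‖∑ r ∈ s, γ r * ex (x r * j)‖ ^ 2 ≤ (Y + 1.2 / δ + 2) * ∑ r ∈ s, ‖γ r‖ ^ 2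

/-- the sampling lemma: a polynomial of length `n` at the points `(a/q + β) j`, `j` sifted -/
def LemS : Prop :=
  ∀ (W c k : ℕ) (R : ℝ) (J : Finset ℕ) (j0 Y : ℕ) (a : ℤ) (q qt m n : ℕ) (β δ : ℝ) (γ : ℕ → ℂ),
    W ∣ k → 1 ≤ R → 0 < q → 0 < qt → 0 < m → 0 < δ → IsCoprime a (q : ℤ) →
    (∀ j ∈ J, j0 ≤ j ∧ j < j0 + Y ∧ Sifted W c k R j) →
    q * R ^ 2 * (δ + |β| * n) ≤ 1 →
    (∀ m' r : ℕ, Squarefree r → r.Coprime k → q ∣ m' * r → qt ∣ m') →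
    (n ≤ m * qt ∨ δ ≤ |β| * qt * m) →
    ∑ j ∈ J, ‖∑ i ∈ range n, γ i * ex ((a / q + β) * i * j)‖ ^ 2 ≤
      (Y + 1.2 / δ + 2) * m / Gs k R * ∑ i ∈ range n, ‖γ i‖ ^ 2

/-- Brun-Titchmarsh in sieve form (`LemS` with `n = q = 1`) -/
def BT : Prop :=
  ∀ (W c k : ℕ) (R : ℝ) (J : Finset ℕ) (j0 Y : ℕ), W ∣ k → 1 ≤ R →
    (∀ j ∈ J, j0 ≤ j ∧ j < j0 + Y ∧ Sifted W c k R j) →
    (J.card : ℝ) ≤ (Y + 1.2 * R ^ 2 + 2) / Gs k R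

/-- enveloping sieve: arbitrary points, all primes `≤ z` removed from the sieve -/
def LemE : Prop :=
  ∀ (W c k : ℕ) (R z : ℝ) (J : Finset ℕ) (j0 Y Y0 : ℕ) (ι : Type) (s : Finset ι) (x : ι → ℝ) (γ : ι → ℂ),
    W ∣ k → 1 ≤ R → 10 ^ 12 ≤ z → (∀ p : ℕ, p.Prime → (p : ℝ) ≤ z → p ∣ k) →
    Y ≤ 10 * Y0 → z ^ 4 ≤ (Y : ℝ) + Y0 →
    (∀ j ∈ J, j0 ≤ j ∧ j < j0 + Y ∧ Sifted W c k R j) →
    ∑ j ∈ J, ‖∑ r ∈ s, γ r * ex (x r * j)‖ ^ 2 ≤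
      (∑ j ∈ Ico ((j0 : ℤ) - Y0) (j0 + Y + Y0), ‖∑ r ∈ s, γ r * ex (x r * j)‖ ^ 2 +
        s.card * (7 * ((Y : ℝ) + Y0) / z + 100 * R ^ (2.08 : ℝ)) * ∑ r ∈ s, ‖γ r‖ ^ 2) / Gs k R

/-- `t/M` lies in the arc of the denominator `q` -/
def Arc (M R q : ℕ) (t : ℤ) : Prop := 1 ≤ q ∧ q ≤ R ∧ 2 * q * R * t.natAbs < M

/-- the multipliers `d` of the denominator `q` on the arc `t/M` -/
def Dset (M R q : ℕ) (t : ℤ) : Finset ℕ :=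
  (Icc 1 R).filter (fun d => Squarefree d ∧ d.Coprime (60 * q) ∧ q * d ≤ R ∧ 2 * (q * d) * R * t.natAbs < M)

/-- exponential sum of a real sequence on `[0, M)` -/
noncomputable def SS (M : ℕ) (a : ℕ → ℝ) (x : ℝ) : ℂ := ∑ u ∈ range M, (a u : ℂ) * ex (x * u)

/-- all pairs (denominator, offset) of arcs -/
noncomputable def Arcs (M R : ℕ) : Finset (ℕ × ℤ) :=
  (Icc 1 R ×ˢ Icc (-(M : ℤ)) M).filter (fun x => 2 * x.1 * R * x.2.natAbs < M)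

/-- the arc inequality -/
def LP : Prop :=
  ∀ (M R c : ℕ) (a : ℕ → ℝ) (D : ℕ → ℤ → ℝ) (V : ℤ → ℝ) (κ : ℝ), 0 < M → 0 ≤ κ →
    (∀ q : ℕ, 1 ≤ q → q ≤ R → q ∣ M) → (∀ u, a u ≠ 0 → Sifted 60 c 60 R u) →
    (∀ q t, Arc M R q t → ∑ d ∈ Dset M R q t, D (q * d) t / d.totient + (if q = 1 then V t else 0) ≤
      κ * ∑ d ∈ Dset M R q t, (1 : ℝ) / d.totient) →
    ∑ x ∈ Arcs M R, D x.1 x.2 *
        ∑ b ∈ (range x.1).filter (fun b => b.Coprime x.1), ‖SS M a (b / x.1 + x.2 / M)‖ ^ 2 +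
      ∑ x ∈ (Arcs M R).filter (fun x => x.1 = 1), V x.2 * ‖SS M a (x.2 / M)‖ ^ 2 ≤
      κ * M * ∑ u ∈ range M, a u ^ 2

/-- removing the primes of `q` -/
def GH1 : Prop := ∀ (q : ℕ) (y : ℝ), 0 < q → Gs 60 y / ff q ≤ Gs (60 * q) y

/-- lower bounds -/
def GH2 : Prop :=
  ∀ y : ℝ, 1 ≤ y → 1 ≤ Gs 60 y ∧ 4 / 15 * (Real.log y + 1.8) ≤ Gs 60 y ∧
    (1000 ≤ y → 4 / 15 * (Real.log y + 2.2) ≤ Gs 60 y)

/-- mass of the bin `2^j ≤ d^4 < 2^(j+1)` -/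
noncomputable def Wbin (j : ℕ) : ℝ :=
  ∑ d ∈ (Icc 1 (2 ^ (j / 4 + 1))).filter (fun d => Squarefree d ∧ d.Coprime 60 ∧ Nat.log 2 (d ^ 4) = j),
    (1 : ℝ) / d.totient

/-- table of upper bounds for `Wbin`, in units of `10⁻⁴` -/
def Wt (j : ℕ) : ℕ :=
  [10000, 0, 0, 0, 0, 0, 0, 0, 0, 0, 0, 1667, 0, 1000, 834, 0, 1181, 0, 455, 691, 278, 489, 410, 340, 434, 531, 536, 366, 534, 432, 432, 500, 459, 443, 458, 515, 430, 476, 452, 461].getD j 495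

/-- upper bounds for the bins -/
def GH3 : Prop := ∀ j : ℕ, Wbin j ≤ (Wt j : ℝ) / 10000

/-- Mertens form -/
def GH4 : Prop :=
  ∀ z R : ℝ, 10 ^ 12 ≤ z → 1 ≤ R → Real.log R / (1.92 * Real.log z) ≤ Gs (60 * primorial ⌊z⌋₊) R

/-- the tail sums used for the drift terms -/
def GH5 : Prop :=
  ∀ (D : ℝ) (s : Finset ℕ), 0 < D → (∀ d ∈ s, Squarefree d ∧ d.Coprime 60 ∧ 1 < d ∧ D ≤ d) →
    ∑ d ∈ s, (1 : ℝ) / (d.totient : ℝ) ^ 2 ≤ 0.07 ∧ D * ∑ d ∈ s, (1 : ℝ) / (d.totient : ℝ) ^ 2 ≤ 0.46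

end Cfsg.Agent.Depth
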